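import Cfsg.Agent.ODD.BaseCore
import Cfsg.Agent.ODD.BaseProd
import Cfsg.Agent.ODD.AuxH39b
import Cfsg.Agent.ODD.AuxH40a
import Cfsg.Agent.ODD.BG4a
import Cfsg.Agent.ODD.BG7.MaxNormed
import Cfsg.Agent.ODD.Aux38a
import Cfsg.Agent.PLOC.PConstrained

/-!
# The Thompson-Bender signalizer lemma and Thompson's transitivity theorem

`thompson_bender`: in a `p`-constrained group (`p` odd) a `p'`-subgroup normalized by a
`p`-subgroup `E` that contains all elements of order `p` of its centralizer lies in `O_{p'}`.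
`thompson_transitivity`: the general form of the transitivity theorem.
-/

set_option autoImplicit false
set_option linter.all false

namespace CL.BG

open Cfsg CL.MSS Subgroup
open scoped commutatorElement

/-! ### Symmetric products in groups of class two -/

section Sym

variable {Q : Type*} [Group Q]

/-- `x₁ ⋯ xₙ xₙ ⋯ x₁`. -/
def symProd (l : List Q) : Q := l.foldr (fun x s => x * s * x) 1

theorem symProd_cons (x : Q) (l : List Q) : symProd (x :: l) = x * symProd l * x := rfl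

theorem symProd_perm (hc : ∀ x y z : Q, ⁅x, y⁆ * z = z * ⁅x, y⁆) {l l' : List Q}
    (h : l.Perm l') : symProd l = symProd l' := by
  refine h.foldr_eq' (fun x _ y _ z => ?_) 1
  have h1 : x * y = ⁅x, y⁆ * (y * x) := by rw [commutatorElement_def]; group
  have h2 : y * x = ⁅x, y⁆⁻¹ * (x * y) := by rw [h1]; group
  have h3 : ∀ w : Q, ⁅x, y⁆⁻¹ * w = w * ⁅x, y⁆⁻¹ := fun w => by
    rw [inv_mul_eq_iff_eq_mul, ← mul_assoc, hc x y w, mul_inv_cancel_right]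
  calc y * (x * z * x) * y = (y * x) * z * (x * y) := by group
    _ = ⁅x, y⁆⁻¹ * (x * y) * z * (⁅x, y⁆ * (y * x)) := by rw [← h1, ← h2]
    _ = (x * y) * z * (⁅x, y⁆⁻¹ * ⁅x, y⁆) * (y * x) := by
        rw [mul_assoc ⁅x, y⁆⁻¹, h3 (x * y * z)]; group
    _ = x * (y * z * y) * x := by group

theorem symProd_map {Q' : Type*} [Group Q'] (φ : Q →* Q') (l : List Q) :
    φ (symProd l) = symProd (l.map φ) := by
  induction l with
  | nil => exact map_one φ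
  | cons x l ih => rw [List.map_cons, symProd_cons, symProd_cons, map_mul, map_mul, ih]

theorem symProd_mul_central {z : Q} (hz : ∀ w, z * w = w * z) (l : List Q) :
    symProd (l.map (· * z)) = symProd l * z ^ (2 * l.length) := by
  induction l with
  | nil => simp [symProd]
  | cons x l ih =>
    rw [List.map_cons, symProd_cons, symProd_cons, ih, List.length_cons]
    have hk : ∀ (k : ℕ) (w : Q), z ^ k * w = w * z ^ k := fun k w => (Commute.pow_left (hz w) k).eq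
    calc x * z * (symProd l * z ^ (2 * l.length)) * (x * z)
        = x * (z * symProd l) * (z ^ (2 * l.length) * x) * z := by group
      _ = x * (symProd l * z) * (x * z ^ (2 * l.length)) * z := by rw [hz, hk]
      _ = x * symProd l * (z * x) * z ^ (2 * l.length) * z := by group
      _ = x * symProd l * (x * z) * z ^ (2 * l.length) * z := by rw [hz x]
      _ = _ := by rw [show 2 * (l.length + 1) = 1 + 2 * l.length + 1 by ring, pow_add, pow_add]; group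

end Sym

variable {G : Type*} [Group G] [Finite G] {p : ℕ} [hp : Fact p.Prime]

/-- Conjugation by an element of the normalizer, as an endomorphism of `P`. -/
def conjOn {P : Subgroup G} {g : G} (hg : g ∈ 𝐍(P)) : P →* P where
  toFun x := ⟨g * x * g⁻¹, conj_mem_of_normalizes le_rfl hg x.2⟩
  map_one' := by ext; simp
  map_mul' x y := by ext; simp

/-- The Baer trick: an `E`-invariant coset of `Z = C_P(K)` contains an `E`-fixed element. -/
theorem exists_fixed_in_coset (hp2 : p ≠ 2) {P E K : Subgroup G} (hP : IsPGroup p P)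
    (hK : (#|K|).Coprime p) (hEP : E ≤ 𝐍(P)) (hKP : K ≤ 𝐍(P)) (hEK : E ≤ 𝐍(K))
    (hZ : P ⊓ 𝐂(K) ≤ 𝐂(P)) (hd : ⁅P, P⁆ ≤ 𝐂(K)) {v : G} (hv : v ∈ P)
    (hvE : ∀ e ∈ E, v⁻¹ * (e * v * e⁻¹) ∈ 𝐂(K)) :
    ∃ z ∈ P ⊓ 𝐂(K), v * z ∈ 𝐂(E) := by
  classical
  haveI := Fintype.ofFinite K
  have hc : ∀ x y z : P, ⁅x, y⁆ * z = z * ⁅x, y⁆ := by
    intro x y z
    have h1 : ⁅(x : G), (y : G)⁆ ∈ ⁅P, P⁆ := commutator_mem_commutator x.2 y.2
    have h2 := mem_cent_iff.1 (hZ ⟨der1_le P h1, hd h1⟩) z z.2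
    ext
    simpa [commutatorElement_def] using h2.symm
  let L : List K := (Finset.univ : Finset K).toList
  let S : P → P := fun x => symProd (L.map fun k => conjOn (hKP k.2) x)
  -- equivariance
  have hS : ∀ (g : G) (hg : g ∈ 𝐍(P)) (hgK : g ∈ 𝐍(K)) (x y : P) (σ : K ≃ K),
      (∀ k : K, g * ((k : G) * x * (k : G)⁻¹) * g⁻¹ = (σ k : G) * y * (σ k : G)⁻¹) →
      conjOn hg (S x) = S y := by
    intro g hg hgK x y σ hσ
    simp only [S]
    rw [symProd_map, List.map_map]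
    have e : (⇑(conjOn hg) ∘ fun k : K => conjOn (hKP k.2) x) =
        (fun k : K => conjOn (hKP k.2) y) ∘ σ := by
      funext k
      exact Subtype.ext (hσ k)
    rw [e, ← List.map_map]
    refine symProd_perm hc (List.Perm.map _ ?_)
    refine (List.perm_ext_iff_of_nodup ((Finset.nodup_toList _).map σ.injective)
      (Finset.nodup_toList _)).2 fun k => ?_
    simp only [L, List.mem_map, Finset.mem_toList, Finset.mem_univ, true_and, iff_true]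
    exact σ.surjective k
  have hSK : ∀ x : P, (S x : G) ∈ 𝐂(K) := by
    intro x
    refine mem_cent_iff.2 fun k hk => ?_
    have := hS k (hKP hk) (le_normalizer hk) x x (Equiv.mulLeft ⟨k, hk⟩) fun k' => by
      simp only [Equiv.coe_mulLeft, coe_mul]; group
    have h2 : k * S x * k⁻¹ = S x := congrArg Subtype.val this
    calc k * S x = k * S x * k⁻¹ * k := by group
      _ = _ := by rw [h2]
  have hSz : ∀ (x z : P), (z : G) ∈ 𝐂(K) → S (x * z) = S x * z ^ (2 * #|K|) := by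
    intro x z hz
    have hzc : ∀ w : P, z * w = w * z := fun w =>
      Subtype.ext (mem_cent_iff.1 (hZ ⟨z.2, hz⟩) w w.2).symm
    have e : (L.map fun k : K => conjOn (hKP k.2) (x * z)) =
        (L.map fun k : K => conjOn (hKP k.2) x).map (· * z) := by
      rw [List.map_map]
      refine List.map_congr_left fun k _ => Subtype.ext ?_
      have := mem_cent_iff.1 hz k k.2
      show (k : G) * (x * z) * (k : G)⁻¹ = k * x * (k : G)⁻¹ * z
      calc (k : G) * (x * z) * (k : G)⁻¹ = k * x * (k : G)⁻¹ * (k * z) * (k : G)⁻¹ := by group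
        _ = _ := by rw [this]; group
    simp only [S]
    rw [e, symProd_mul_central hzc, List.length_map, Finset.length_toList, Finset.card_univ,
      Nat.card_eq_fintype_card]
  have hco : ∀ w : P, (orderOf w).Coprime (2 * #|K|) := by
    intro w
    obtain ⟨k, hk⟩ := IsPGroup.iff_orderOf.1 hP w
    rw [hk]
    exact Nat.Coprime.pow_left _ (Nat.Coprime.mul_right
      ((Nat.coprime_primes hp.out Nat.prime_two).2 hp2) hK.symm)
  obtain ⟨m, hm⟩ := exists_pow_eq_self_of_coprime (hco (S ⟨v, hv⟩)⁻¹).symm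
  set z : P := ((S ⟨v, hv⟩)⁻¹) ^ m with hz
  have hzK : (z : G) ∈ 𝐂(K) := by
    rw [hz, coe_pow, coe_inv]
    exact pow_mem (inv_mem (hSK _)) m
  have h1 : S (⟨v, hv⟩ * z) = 1 := by
    rw [hSz _ _ hzK, hz, ← pow_mul, mul_comm m, pow_mul, hm, mul_inv_cancel]
  refine ⟨z, ⟨z.2, hzK⟩, mem_cent_iff.2 fun e he => ?_⟩
  set x : P := ⟨v, hv⟩ * z with hx
  let σ : K ≃ K := Equiv.ofBijective
    (conjOn (hEK he)) (Finite.injective_iff_bijective.1 fun a b hab => by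
      have : e * a * e⁻¹ = e * b * e⁻¹ := congrArg Subtype.val hab
      exact Subtype.ext (by simpa using this))
  have h2 := hS e (hEP he) (hEK he) x (conjOn (hEP he) x) σ fun k => by
    show _ = (e * k * e⁻¹) * (e * x * e⁻¹) * (e * k * e⁻¹)⁻¹
    group
  rw [h1, map_one] at h2
  have hw : ((x⁻¹ * conjOn (hEP he) x : P) : G) ∈ 𝐂(K) := by
    have : ((x⁻¹ * conjOn (hEP he) x : P) : G) =
        (z : G)⁻¹ * (v⁻¹ * (e * v * e⁻¹)) * (e * z * e⁻¹) := by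
      show (v * z)⁻¹ * (e * (v * z) * e⁻¹) = _
      group
    rw [this]
    exact mul_mem (mul_mem (inv_mem hzK) (hvE e he))
      (conj_mem_of_normalizes (le_normalizer_centralizer hEK) he hzK)
  have h3 := hSz x _ hw
  rw [mul_inv_cancel_left, ← h2, h1, one_mul] at h3
  have h4 : x⁻¹ * conjOn (hEP he) x = 1 :=
    orderOf_eq_one_iff.1 (Nat.eq_one_of_dvd_coprimes (hco _) dvd_rfl
      (orderOf_dvd_of_pow_eq_one h3.symm))
  have h5 : e * (v * z) * e⁻¹ = v * z := congrArg Subtype.val (inv_mul_eq_one.1 h4).symm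
  calc e * (v * z) = e * (v * z) * e⁻¹ * e := by group
    _ = _ := by rw [h5]

theorem le_cent_of_comm_le_cent {P K : Subgroup G} (hP : IsPGroup p P) (hK : (#|K|).Coprime p)
    (hKP : K ≤ 𝐍(P)) (h : ⁅P, K⁆ ≤ 𝐂(K)) : P ≤ 𝐂(K) := by
  rw [← comm_eq_bot_iff, ← H39.comm_comm_eq hKP (CL.coprime_card_of_isPGroup hP hK).symm
    (Or.inr (H39.sol_pgroup hP)), comm_eq_bot_iff]
  exact h

/-- The core of the Thompson-Bender lemma. -/
theorem thompson_bender_core (hp2 : p ≠ 2) {P E K : Subgroup G} (hP : IsPGroup p P)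
    (hE : IsPGroup p E) (hK : (#|K|).Coprime p) (hEP : E ≤ 𝐍(P)) (hKP : K ≤ 𝐍(P))
    (hEK : E ≤ 𝐍(K)) (h : ∀ x ∈ P ⊓ 𝐂(E), x ^ p = 1 → x ∈ 𝐂(K)) : P ≤ 𝐂(K) := by
  induction P using CL.subgroup_induction with
  | h P IH =>
  by_contra hne
  have IH' : ∀ R : Subgroup G, R < P → E ≤ 𝐍(R) → K ≤ 𝐍(R) → R ≤ 𝐂(K) := fun R hR h1 h2 =>
    IH R hR (hP.to_le hR.le) h1 h2 fun x hx => h x ⟨hR.le hx.1, hx.2⟩
  have hP1 : P ≠ ⊥ := fun h => hne (h ▸ bot_le)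
  have hPK : ⁅P, K⁆ = P := by
    by_contra h1
    exact hne (le_cent_of_comm_le_cent hP hK hKP (IH' _
      (lt_of_le_of_ne (commutator_le_left_of_normalizes hKP) h1)
      (le_normalizer_commutator hEP hEK) (comm_norm_right _ _)))
  have hd : ⁅P, P⁆ ≤ 𝐂(K) := IH' _ (CL.commutator_lt_of_isPGroup hP hP le_normalizer hP1)
    (hEP.trans (norm_le_norm_der1 P)) (hKP.trans (norm_le_norm_der1 P))
  have hZ : P ⊓ 𝐂(K) ≤ 𝐂(P) := by
    refine cent_symm (comm_eq_bot_iff.1 ?_)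
    have := three_subgroup (A := K) (B := P) (C := P ⊓ 𝐂(K))
      (comm_eq_bot_iff.2 ((commutator_mono le_rfl inf_le_left).trans hd))
      (by rw [comm_eq_bot_iff.2 inf_le_right, commutator_bot_left])
    rwa [commutator_comm K, hPK] at this
  have hexp : ∀ x ∈ P, x ^ p = 1 := by
    have hO : omegaOne p P = P := by
      by_contra h1
      have h2 := IH' _ (lt_of_le_of_ne (CL.Th.omegaOne_le P) h1)
        (hEP.trans (CL.Th.normalizer_le_normalizer_omegaOne P))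
        (hKP.trans (CL.Th.normalizer_le_normalizer_omegaOne P))
      exact hne (cent_symm (coprime_odd_faithful_cent_abelem hp2 hP bot_le CL.Th.elemAb_bot hKP hK
        fun y hy hyp => h2 (CL.Th.mem_omegaOne_of hy.1 hyp)))
    have := (exponent_odd_nil23 hP (odd_card_of_isPGroup hp2 hP)
      (Or.inl (comm_eq_bot_iff.2 ((le_inf (der1_le P) hd).trans hZ)))).1
    rwa [hO] at this
  have hPZ : P ≤ 𝐍(P ⊓ 𝐂(K)) := le_norm_of_le_cent (cent_symm hZ)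
  have hEZ : E ≤ 𝐍(P ⊓ 𝐂(K)) := le_normalizer_inf hEP (le_normalizer_centralizer hEK)
  obtain ⟨w, hw, hw1⟩ := exists_mem_ne_one (inf_centralizer_ne_bot (isPGroup_quo hE (P ⊓ 𝐂(K)))
    (isPGroup_quo hP (P ⊓ 𝐂(K))) (quo_norms _ hEP)
    (quo_ne_bot hPZ fun h => hne (h.trans inf_le_right)))
  obtain ⟨v, hv, rfl⟩ := (mem_quo_of_le hPZ).1 hw.1
  have hvE := (coset_mem_cent_quo_iff (hPZ hv) hEZ).1 hw.2
  obtain ⟨z, hz, hvz⟩ := exists_fixed_in_coset hp2 hP hK hEP hKP hEK hZ hd hv fun e he => by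
    have h1 := hvE e he
    have h2 := mem_cent_iff.1 (hZ h1) v hv
    have : v⁻¹ * (e * v * e⁻¹) = ⁅e, v⁆ := by
      rw [inv_mul_eq_iff_eq_mul, h2, commutatorElement_def]; group
    rw [this]
    exact h1.2
  have h1 := h _ ⟨mul_mem hv hz.1, hvz⟩ (hexp _ (mul_mem hv hz.1))
  exact hw1 (coset_eq_one_of_mem ⟨hv, (Subgroup.mul_mem_cancel_right _ hz.2).1 h1⟩)

/-- The analogue of `thompson_bender_core` for an abelian `E` acting quadratically. -/
theorem thompson_bender_core_quad {P E K : Subgroup G} (hP : IsPGroup p P)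
    (hE : IsPGroup p E) (hK : (#|K|).Coprime p) (hEP : E ≤ 𝐍(P)) (hKP : K ≤ 𝐍(P))
    (hEK : E ≤ 𝐍(K)) (hq : ⁅P, E⁆ ≤ 𝐂(P ⊔ E)) (h : P ⊓ 𝐂(E) ≤ 𝐂(K)) : P ≤ 𝐂(K) := by
  refine cent_symm ?_
  rw [← H39.comm_sup_cent_eq hEK (CL.coprime_card_of_isPGroup hE hK)
    (Or.inl (H39.sol_pgroup hE))]
  refine sup_le (cent_symm ?_) (cent_symm ?_)
  · have hKE : ⁅K, E⁆ ≤ K := commutator_le_left_of_normalizes hEK
    refine le_cent_of_comm_le_cent hP (hK.coprime_dvd_left (card_dvd_of_le hKE)) (hKE.trans hKP) ?_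
    have hPE : ⁅P, E⁆ ≤ P := commutator_le_left_of_normalizes hEP
    have hPEK : ⁅P, E⁆ ≤ 𝐂(K) := (le_inf hPE (hq.trans (centS le_sup_right))).trans h
    have := three_subgroup_le (A := K) (B := E) (C := P) (N := ⁅P, E⁆)
      (le_norm_of_le_cent (cent_symm hPEK)) (comm_norm_right _ _) (comm_norm_left _ _)
      (by rw [commutator_comm E, comm_eq_bot_iff.2 hPEK]; exact bot_le)
      (commutator_mono (commutator_le_left_of_normalizes hKP) le_rfl)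
    rw [commutator_comm] at this
    exact this.trans (hPEK.trans (centS hKE))
  · exact CL.thompson_p_times_q E (K ⊓ 𝐂(E)) P hE (hK.coprime_dvd_left (card_dvd_of_le inf_le_left))
      hP (cent_symm inf_le_right) hEP (inf_le_left.trans hKP) (h.trans (centS inf_le_left))

theorem normalIn_pPrimePCoreOf (X : Subgroup G) : NormalIn (pPrimePCoreOf p X) X :=
  haveI := pPrimePCore_normal' (p := p) (G := X)
  normalIn_map_subtype _

theorem p'core_Hall_pPrimePCoreOf (X : Subgroup G) :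
    IsPiHallOf {p}ᶜ (piCoreOf {p}ᶜ X) (pPrimePCoreOf p X) := by
  have h1 : piCoreOf {p}ᶜ X ≤ pPrimePCoreOf p X := by
    rw [pPrimePCoreOf_eq_coquo]; exact le_coquo _
  refine piHall_of h1 (pcore_pgroup _ _) ?_
  rw [← card_quo ((normalIn_pPrimePCoreOf X).le.trans (pcore_norm _ _)), quo_pPrimePCoreOf,
    compl_compl]
  exact pcore_pgroup _ _

theorem pconstrained_cent_le {X T : Subgroup G} (hc : IsPConstrained p X)
    (hT : SylIn p T (pPrimePCoreOf p X)) : X ⊓ 𝐂(T) ≤ pPrimePCoreOf p X := by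
  have h1 := hT.subgroupOf (normalIn_pPrimePCoreOf X).le
  have e : (pPrimePCoreOf p X).subgroupOf X = pPrimePCore p X :=
    comap_map_eq_self_of_injective X.subtype_injective _
  rw [e] at h1
  intro x hx
  refine ⟨⟨x, hx.1⟩, CL.PC.isPConstrained_iff_sylIn.1 hc _ h1 ?_, rfl⟩
  exact mem_cent_iff.2 fun a ha => Subtype.ext (mem_cent_iff.1 hx.2 a ha)

/-- Reduction of the Thompson-Bender lemma to the action on a Sylow subgroup of `O_{p',p}`. -/
theorem le_p'core_of_pconstrained {X E K S : Subgroup G} (hc : IsPConstrained p X)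
    (hS : SylIn p S X) (hES : E ≤ S) (hKX : K ≤ X) (hK : PiGrp {p}ᶜ K) (hEK : E ≤ 𝐍(K))
    (core : ∀ T K₁ : Subgroup G, T ≤ S → S ≤ 𝐍(T) → (#|K₁|).Coprime p → K₁ ≤ 𝐍(T) → E ≤ 𝐍(K₁) →
      T ≤ 𝐂(K₁)) : K ≤ piCoreOf {p}ᶜ X := by
  have hn := normalIn_pPrimePCoreOf (p := p) X
  have hT := hS.inf_normal_of_le hn.norm hn.le
  set T := S ⊓ pPrimePCoreOf p X with hTdef
  set O := piCoreOf {p}ᶜ X with hO
  have hH := p'core_Hall_pPrimePCoreOf (p := p) X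
  have hST : S ≤ 𝐍(T) := le_normalizer_inf le_normalizer (hS.le.trans hn.norm)
  have hOn : X ≤ 𝐍(O) := pcore_norm _ _
  have hKs : PiGrp {p}ᶜ (O ⊔ K) := (pcore_pgroup _ _).sup' hK (hKX.trans hOn)
  have hX : O ⊔ (X ⊓ 𝐍(T)) = X := by
    have h1 := hT.frattini_sup hn.le hn.norm
    rw [← hT.piHall.sup_eq hH, sup_comm T, sup_assoc,
      sup_eq_right.2 (le_inf (hT.le.trans hn.le) le_normalizer : T ≤ X ⊓ 𝐍(T))] at h1
    exact h1
  have hKX' : O ⊔ K ≤ X := sup_le (pcore_sub _ _) hKX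
  have h1 : O ⊔ K = O ⊔ ((O ⊔ K) ⊓ (X ⊓ 𝐍(T))) := by
    rw [← inf_sup_of_normalizes' le_sup_left (inf_le_left.trans hOn), hX, inf_eq_left.2 hKX']
  refine le_sup_right.trans (h1.le.trans (sup_le le_rfl ?_))
  have hK₁ := hKs.inf_left (X ⊓ 𝐍(T))
  have h2 := core T _ inf_le_left hST ((piGrp_compl_singleton_iff_coprime hp.out).1 hK₁)
    (inf_le_right.trans inf_le_right) (le_normalizer_inf
      (le_normalizer_sup ((hES.trans hS.le).trans hOn) hEK)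
      (le_norm_of_le (hES.trans (le_inf hS.le hST))))
  exact hH.le_of_normal (hn.le.trans hOn) ((le_inf (inf_le_right.trans inf_le_left)
    (cent_symm h2)).trans (pconstrained_cent_le hc hT)) hK₁

theorem mem_cent_of_mem_of_norm {T E K : Subgroup G} (hT : IsPGroup p T) (hK : (#|K|).Coprime p)
    (hKT : K ≤ 𝐍(T)) (hEK : E ≤ 𝐍(K)) : T ⊓ E ≤ 𝐂(K) := by
  rw [← comm_eq_bot_iff, ← le_bot_iff,
    ← inf_eq_bot_of_coprime (CL.coprime_card_of_isPGroup hT hK)]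
  exact le_inf (commutator_le_right_of_normalizes (inf_le_right.trans hEK))
    ((commutator_mono inf_le_left le_rfl).trans (commutator_le_left_of_normalizes hKT))

/-- **The Thompson-Bender signalizer lemma.** -/
theorem thompson_bender (hp2 : p ≠ 2) {X E K : Subgroup G} (hc : IsPConstrained p X)
    (hEX : E ≤ X) (hE : IsPGroup p E) (hKX : K ≤ X) (hK : PiGrp {p}ᶜ K) (hEK : E ≤ 𝐍(K))
    (h : ∀ x ∈ X ⊓ 𝐂(E), x ^ p = 1 → x ∈ E) : K ≤ piCoreOf {p}ᶜ X := by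
  obtain ⟨S, hS, hES⟩ := exists_sylIn_ge hE hEX
  refine le_p'core_of_pconstrained hc hS hES hKX hK hEK fun T K₁ hTS hST hK₁ hKT hEK₁ => ?_
  have hT := hS.pgroup.to_le hTS
  exact thompson_bender_core hp2 hT hE hK₁ (hES.trans hST) hKT hEK₁ fun x hx hxp =>
    mem_cent_of_mem_of_norm hT hK₁ hKT hEK₁ ⟨hx.1, h x ⟨hS.le (hTS hx.1), hx.2⟩ hxp⟩

/-- The Thompson-Bender lemma when the Sylow `p`-subgroups have class at most two. -/
theorem thompson_bender_class2 {X E K : Subgroup G} (hc : IsPConstrained p X)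
    (hEX : E ≤ X) (hE : IsPGroup p E) (hKX : K ≤ X) (hK : PiGrp {p}ᶜ K) (hEK : E ≤ 𝐍(K))
    (h2 : ∀ S : Subgroup G, IsPGroup p S → S ≤ X → ⁅S, S⁆ ≤ 𝐂(S))
    (h : ∀ x ∈ X ⊓ 𝐂(E), IsPGroup p (zpowers x) → x ∈ E) : K ≤ piCoreOf {p}ᶜ X := by
  obtain ⟨S, hS, hES⟩ := exists_sylIn_ge hE hEX
  refine le_p'core_of_pconstrained hc hS hES hKX hK hEK fun T K₁ hTS hST hK₁ hKT hEK₁ => ?_
  have hT := hS.pgroup.to_le hTS
  refine thompson_bender_core_quad hT hE hK₁ (hES.trans hST) hKT hEK₁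
    ((commutator_mono hTS hES).trans ((h2 S hS.pgroup hS.le).trans (centS (sup_le hTS hES))))
    fun x hx => mem_cent_of_mem_of_norm hT hK₁ hKT hEK₁
      ⟨hx.1, h x ⟨hS.le (hTS hx.1), hx.2⟩ (hT.to_le (zpowers_le.2 hx.1))⟩

theorem exists_cent1_not_le_two {B N₁ N₂ D : Subgroup G} {H : Subgroup G} (hB : PElem p 3 B H)
    (h₁ : B ≤ 𝐍(N₁)) (h₂ : B ≤ 𝐍(N₂)) (c₁ : (#|B|).Coprime #|N₁|) (c₂ : (#|B|).Coprime #|N₂|)
    (n₁ : ¬ N₁ ≤ D) (n₂ : ¬ N₂ ≤ D) :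
    ∃ u ∈ B, u ≠ 1 ∧ ¬ N₁ ⊓ 𝐂₁(u) ≤ D ∧ ¬ N₂ ⊓ 𝐂₁(u) ≤ D := by
  haveI := hB.2.1.1
  by_contra hcon
  push Not at hcon
  refine n₁ (CL.coprime_le_of_forall_hyperplane B N₁ D hp.out hB.2.1.2 (H39.pe_ne_bot hB) h₁ c₁
    fun A hA hi => ?_)
  by_contra hA₁
  have hA2 : PElem p 2 A B := by
    refine ⟨hA, CL.Th.elemAb_mono hB.2.1 hA, ?_⟩
    have := card_inf_mul_relIndex A B
    rw [inf_eq_left.2 hA, hi, hB.2.2, pow_succ] at this
    exact Nat.eq_of_mul_eq_mul_right hp.out.pos this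
  haveI := hA2.2.1.1
  refine n₂ (CL.coprime_le_of_forall_centralizer_le A N₂ D (H39.pe2_not_cyclic hA2) (hA.trans h₂)
    (c₂.coprime_dvd_left (card_dvd_of_le hA)) fun a ha ha1 => ?_)
  exact hcon a (hA ha) ha1 fun h => hA₁ ((inf_le_inf_left _ (cent_le_cent1 ha)).trans h)

/-- **Thompson's transitivity theorem**, abstract form: `E` is an abelian `p`-group of rank at
least `3`, and for `u ∈ E^#` of order `p` the `E`-invariant `q`-subgroups of `C(u)` lie in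
`O_{p'}(N(⟨u⟩))`. -/
theorem thompson_transitivity {E : Subgroup G} (hE : IsPGroup p E) (hEc : IsMulCommutative E)
    (h3 : ¬ PRankLE p 2 E) {q : ℕ} [Fact q.Prime] (hqp : q ≠ p)
    (hsig : ∀ u ∈ E, u ≠ 1 → ∀ R : Subgroup G, IsPGroup q R → E ≤ 𝐍(R) → R ≤ 𝐂₁(u) →
      R ≤ piCoreOf {p}ᶜ 𝐍(zpowers u))
    {Q₁ Q₂ : Subgroup G} (h₁ : Q₁ ∈ maxInvSubgroups ⊤ E {q}) (h₂ : Q₂ ∈ maxInvSubgroups ⊤ E {q}) :
    ConjIn (piCoreOf {p}ᶜ 𝐂(E)) Q₁ Q₂ := by
  obtain ⟨B, hB⟩ := A38.exists_pElem_of_not_prankLE h3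
  suffices H : ∀ D Q₁ Q₂ : Subgroup G, Q₁ ∈ maxInvSubgroups ⊤ E {q} →
      Q₂ ∈ maxInvSubgroups ⊤ E {q} → D ≤ Q₁ → D ≤ Q₂ → ConjIn (piCoreOf {p}ᶜ 𝐂(E)) Q₁ Q₂ from
    H ⊥ Q₁ Q₂ h₁ h₂ bot_le bot_le
  clear h₁ h₂ Q₁ Q₂
  intro D
  induction D using CL.subgroup_induction_top with
  | h D IH =>
  intro Q₁ Q₂ h₁ h₂ d₁ d₂
  by_cases hD : D = Q₁ ⊓ Q₂
  swap
  · exact IH _ (lt_of_le_of_ne (le_inf d₁ d₂) hD) Q₁ Q₂ h₁ h₂ inf_le_left inf_le_right
  obtain ⟨q₁, e₁, m₁⟩ := mem_max_normed_iff.1 h₁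
  obtain ⟨q₂, e₂, m₂⟩ := mem_max_normed_iff.1 h₂
  by_cases hQ : Q₁ = Q₂
  · rw [hQ]; exact H39.conjIn_refl _ _
  have l₁ : D < Q₁ := lt_of_le_of_ne d₁ fun h =>
    hQ (m₁ Q₂ q₂ e₂ (h ▸ d₂)).symm
  have l₂ : D < Q₂ := lt_of_le_of_ne d₂ fun h =>
    hQ (m₂ Q₁ q₁ e₁ (h ▸ d₁))
  have hED : E ≤ 𝐍(D) := hD ▸ le_normalizer_inf e₁ e₂
  have hEN : ∀ {Q : Subgroup G}, E ≤ 𝐍(Q) → E ≤ 𝐍(Q ⊓ 𝐍(D)) := fun h =>
    le_normalizer_inf h (le_norm_of_le hED)
  obtain ⟨u, hu, hu1, n₁, n₂⟩ := exists_cent1_not_le_two hB (hB.1.trans (hEN e₁))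
    (hB.1.trans (hEN e₂))
    (H39.coprime_pgroups (H39.pe_pgroup hB) (q₁.to_le inf_le_left) hqp.symm)
    (H39.coprime_pgroups (H39.pe_pgroup hB) (q₂.to_le inf_le_left) hqp.symm)
    (lt_inf_normalizer_of_lt q₁ l₁).not_ge (lt_inf_normalizer_of_lt q₂ l₂).not_ge
  have huE := hB.1 hu
  have hEu : E ≤ 𝐂₁(u) := le_cent1_iff.2 (le_cent_of_abelian hEc huE)
  have hEu' : E ≤ 𝐍(zpowers u) := le_norm_of_le_cent (by rwa [cent_zpowers])
  set K := piCoreOf {p}ᶜ 𝐍(zpowers u) ⊓ 𝐍(D) with hK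
  have hEK : E ≤ 𝐍(K) := le_normalizer_inf (hEu'.trans (pcore_norm _ _)) (le_norm_of_le hED)
  have hKp : PiGrp {p}ᶜ K := (pcore_pgroup _ _).inf_left _
  have hco : (#|K|).Coprime #|E| := hKp.coprime_isPGroup' hE rfl
  have hR : ∀ {Q : Subgroup G}, IsPGroup q Q → E ≤ 𝐍(Q) →
      ∃ R, SylIn q R K ∧ Q ⊓ 𝐍(D) ⊓ 𝐂₁(u) ≤ R ∧ E ≤ 𝐍(R) := by
    intro Q hq he
    have hq' : IsPGroup q ↥(Q ⊓ 𝐍(D) ⊓ 𝐂₁(u)) := hq.to_le (inf_le_left.trans inf_le_left)
    have he' : E ≤ 𝐍(Q ⊓ 𝐍(D) ⊓ 𝐂₁(u)) := le_normalizer_inf (hEN he) (le_norm_of_le hEu)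
    exact H39.exists_inv_sylIn_ge hEK hco (Or.inl (H39.sol_pgroup hE))
      (le_inf (hsig u huE hu1 _ hq' he' inf_le_right) (inf_le_left.trans inf_le_right)) hq' he'
  obtain ⟨R₁, s₁, r₁, f₁⟩ := hR q₁ e₁
  obtain ⟨R₂, s₂, r₂, f₂⟩ := hR q₂ e₂
  obtain ⟨c, hc, hcR⟩ : ∃ c ∈ K ⊓ 𝐂(E), c •ᶜ R₁ = R₂ := by
    obtain ⟨k, hk, rfl⟩ := s₁.exists_conj s₂
    exact coprime_invariant_conj_trans E K hEK hco.symm (Or.inl (H39.sol_pgroup hE)) R₁ f₁ k hk f₂
  have hcO : c ∈ piCoreOf {p}ᶜ 𝐂(E) :=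
    pcore_inf_le ((cent_le_cent1 huE).trans (by rw [← cent_zpowers]; exact cent_le_norm _))
      ⟨hc.1.1, hc.2⟩
  obtain ⟨Q₃, h₃, l₃⟩ := max_normed_exists (A := E) (Q := D ⊔ R₂)
    (isPGroup_sup_of_normalizes' (q₁.to_le d₁) s₂.pgroup (s₂.le.trans inf_le_right))
    (le_normalizer_sup hED f₂)
  have k₂ : ConjIn (piCoreOf {p}ᶜ 𝐂(E)) Q₃ Q₂ := by
    refine IH (D ⊔ (Q₂ ⊓ 𝐍(D) ⊓ 𝐂₁(u))) (lt_of_le_of_ne le_sup_left fun h => n₂ ?_) Q₃ Q₂ h₃ h₂
      ((sup_le_sup_left r₂ D).trans l₃) (sup_le d₂ (inf_le_left.trans inf_le_left))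
    exact le_sup_right.trans h.ge
  have hcD : c •ᶜ D = D := cj_eq_of_mem_normalizer hc.1.2
  have k₁ : ConjIn (piCoreOf {p}ᶜ 𝐂(E)) (c •ᶜ Q₁) Q₃ := by
    refine IH (D ⊔ c •ᶜ (Q₁ ⊓ 𝐍(D) ⊓ 𝐂₁(u))) (lt_of_le_of_ne le_sup_left fun h => n₁ ?_) _ Q₃
      (norm_acts_max_norm (cent_le_norm E hc.2) h₁) h₃
      (sup_le (hcD.ge.trans (cj_mono c d₁)) (cj_mono c (inf_le_left.trans inf_le_left)))
      ((sup_le_sup_left ((cj_mono c r₁).trans hcR.le) D).trans l₃)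
    rw [← cj_le_cj_iff c, hcD]
    exact le_sup_right.trans h.ge
  obtain ⟨a, ha, rfl⟩ := k₂
  obtain ⟨b, hb, rfl⟩ := k₁
  exact ⟨a * b * c, mul_mem (mul_mem ha hb) hcO, by rw [cj_mul, cj_mul]⟩

end CL.BG
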